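import Cfsg.Agent.Lib.Helper35.JR.Defs

/-!
# JR [AUT] (S3206): a 2-power-order automorphism fixing a Sylow 2-subgroup pointwise is inner
(from the abstract data `S8`, `Fus`, `ZC`, `Loc`).
-/

set_option autoImplicit false

namespace Cfsg.Agent.Lib.Helper97.JR

open Cfsg.Agent.Lib.Helper35.JR

universe u

variable {G : Type u} [Group G]

theorem inv_self_of_sq97 {x : G} (h : x ^ 2 = 1) : x⁻¹ = x :=
  inv_eq_of_mul_eq_one_left (by rw [← sq]; exact h)

theorem cent_conj97 (h t : G) :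
    Subgroup.centralizer ({h * t * h⁻¹} : Set G) =
      (Subgroup.centralizer ({t} : Set G)).map (MulAut.conj h).toMonoidHom := by
  ext y
  simp only [Subgroup.mem_map, Subgroup.mem_centralizer_iff, Set.mem_singleton_iff, forall_eq,
    MulEquiv.coe_toMonoidHom, MulAut.conj_apply]
  constructor
  · intro hy
    refine ⟨h⁻¹ * y * h, ?_, by group⟩
    have hy' : h * t * h⁻¹ * y = y * (h * t * h⁻¹) := hy
    calc t * (h⁻¹ * y * h) = h⁻¹ * (h * t * h⁻¹ * y) * h := by group
      _ = h⁻¹ * (y * (h * t * h⁻¹)) * h := by rw [hy']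
      _ = h⁻¹ * y * h * t := by group
  · rintro ⟨x, hx, rfl⟩
    calc h * t * h⁻¹ * (h * x * h⁻¹) = h * (t * x) * h⁻¹ := by group
      _ = h * (x * t) * h⁻¹ := by rw [hx]
      _ = h * x * h⁻¹ * (h * t * h⁻¹) := by group

theorem mem_cent_conj97 (h t y : G) :
    y ∈ Subgroup.centralizer ({h * t * h⁻¹} : Set G) ↔
      h⁻¹ * y * h ∈ Subgroup.centralizer ({t} : Set G) := by
  rw [cent_conj97, Subgroup.mem_map]
  constructor
  · rintro ⟨x, hx, rfl⟩
    simpa [mul_assoc] using hx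
  · intro hy
    exact ⟨h⁻¹ * y * h, hy, by simp [mul_assoc]⟩

theorem coatom_conj97 (h t : G) (hc : IsCoatom (Subgroup.centralizer ({t} : Set G))) :
    IsCoatom (Subgroup.centralizer ({h * t * h⁻¹} : Set G)) := by
  rw [cent_conj97]
  exact ((MulAut.conj h).mapSubgroup.isCoatom_iff _).mpr hc

theorem zc_conj97 (h t : G) (hz : ZC G t) : ZC G (h * t * h⁻¹) := by
  intro x hx hcen
  have h1 : h⁻¹ * x * h ∈ Subgroup.centralizer ({t} : Set G) := (mem_cent_conj97 h t x).mp hx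
  have h2 : ∀ y ∈ Subgroup.centralizer ({t} : Set G), h⁻¹ * x * h * y = y * (h⁻¹ * x * h) := by
    intro y hy
    have hy' : h * y * h⁻¹ ∈ Subgroup.centralizer ({h * t * h⁻¹} : Set G) := by
      rw [mem_cent_conj97]
      simpa [mul_assoc] using hy
    have h3 := hcen _ hy'
    calc h⁻¹ * x * h * y = h⁻¹ * (x * (h * y * h⁻¹)) * h := by group
      _ = h⁻¹ * (h * y * h⁻¹ * x) * h := by rw [h3]
      _ = y * (h⁻¹ * x * h) := by group
  obtain ⟨n, hn⟩ := hz _ h1 h2
  refine ⟨n, ?_⟩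
  show (h * t * h⁻¹) ^ n = x
  rw [conj_zpow, show t ^ n = h⁻¹ * x * h from hn]
  group

theorem mem_smul97 (S : Sylow 2 G) (h x : G) :
    x ∈ ((h⁻¹ • S : Sylow 2 G) : Subgroup G) ↔ h * x * h⁻¹ ∈ (S : Subgroup G) := by
  rw [Sylow.smul_def, Sylow.pointwise_smul_def, Subgroup.mem_pointwise_smul_iff_inv_smul_mem]
  simp [MulAut.smul_def]

theorem zpowers_sq97 {s x : G} (hs : s ^ 2 = 1) (hx : x ∈ Subgroup.zpowers s) : x = 1 ∨ x = s := by
  obtain ⟨n, rfl⟩ := Subgroup.mem_zpowers_iff.mp hx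
  rcases Int.even_or_odd' n with ⟨m, rfl | rfl⟩
  · left
    rw [zpow_mul, zpow_ofNat, hs, one_zpow]
  · right
    rw [zpow_add, zpow_one, zpow_mul, zpow_ofNat, hs, one_zpow, one_mul]

theorem pkgAut : PkgAut.{u} := by
  intro G _ _ t ht hcoat hS8 hFus hZC hLoc φ k hφ hS
  obtain ⟨S, hS⟩ := hS
  classical
  obtain ⟨hcard, hexp⟩ := hS8 S
  have hcomm : ∀ x ∈ (S : Subgroup G), ∀ y ∈ (S : Subgroup G), x * y = y * x := by
    intro x hx y hy
    have h3 := inv_self_of_sq97 (hexp (x * y) (mul_mem hx hy))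
    rw [mul_inv_rev, inv_self_of_sq97 (hexp x hx), inv_self_of_sq97 (hexp y hy)] at h3
    exact h3.symm
  have ht1 : t ≠ 1 := by
    intro h; rw [h, orderOf_one] at ht; omega
  -- a conjugate of `t` in `S`
  have hpz : IsPGroup 2 (Subgroup.zpowers t) := IsPGroup.of_card (n := 1) (by
    rw [Nat.card_zpowers, ht, pow_one])
  obtain ⟨Q, hQ⟩ := hpz.exists_le_sylow
  obtain ⟨g, hg⟩ := MulAction.exists_smul_eq G S Q
  -- hg : g • S = Q
  have htS : g⁻¹ * t * g⁻¹⁻¹ ∈ (S : Subgroup G) := by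
    have h1 : t ∈ ((g⁻¹⁻¹ • S : Sylow 2 G) : Subgroup G) := by
      rw [inv_inv, hg]; exact hQ (Subgroup.mem_zpowers t)
    exact (mem_smul97 S g⁻¹ t).mp h1
  have htS1 : g⁻¹ * t * g⁻¹⁻¹ ≠ 1 := by
    intro h
    apply ht1
    have : t = g * (g⁻¹ * t * g⁻¹⁻¹) * g⁻¹ := by group
    rw [this, h]; group
  -- every involution of `S` is a conjugate of `t`
  have hconjt : ∀ s ∈ (S : Subgroup G), s ≠ 1 → ∃ h : G, h * t * h⁻¹ = s := by
    intro s hs hs1
    obtain ⟨n, _, hn⟩ := hFus S _ htS htS1 s hs hs1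
    refine ⟨n * g⁻¹, ?_⟩
    rw [← hn]; group
  -- the local statement at every involution of `S`
  have hstar : ∀ s ∈ (S : Subgroup G), s ≠ 1 → ∃ w ∈ (S : Subgroup G),
      ∀ y ∈ Subgroup.centralizer ({s} : Set G), φ y = w * y * w⁻¹ := by
    intro s hs hs1
    obtain ⟨h, rfl⟩ := hconjt s hs hs1
    let c : G ≃* G := MulAut.conj h
    let ψ : G ≃* G := c⁻¹ * φ * c⁻¹⁻¹
    have hψpow : ψ ^ (2 ^ k) = 1 := by
      show (c⁻¹ * φ * c⁻¹⁻¹) ^ (2 ^ k) = 1
      rw [conj_pow, hφ]; group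
    have hψ : ∀ x : G, ψ x = h⁻¹ * φ (h * x * h⁻¹) * h := by
      intro x
      show (c⁻¹ * φ * c⁻¹⁻¹) x = _
      rw [inv_inv, MulAut.mul_apply, MulAut.mul_apply]
      show (MulAut.conj h)⁻¹ (φ (MulAut.conj h x)) = _
      rw [MulAut.conj_inv_apply, MulAut.conj_apply]
    have htS' : t ∈ ((h⁻¹ • S : Sylow 2 G) : Subgroup G) := (mem_smul97 S h t).mpr hs
    have hfix : ∀ x ∈ ((h⁻¹ • S : Sylow 2 G) : Subgroup G), ψ x = x := by
      intro x hx
      rw [hψ, hS _ ((mem_smul97 S h x).mp hx)]; group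
    obtain ⟨w', hw', hw'y⟩ := hLoc ψ k hψpow (h⁻¹ • S) htS' hfix
    refine ⟨h * w' * h⁻¹, (mem_smul97 S h w').mp hw', ?_⟩
    intro y hy
    have hy' := (mem_cent_conj97 h t y).mp hy
    have h1 := hw'y _ hy'
    rw [hψ] at h1
    have h2 : h * (h⁻¹ * y * h) * h⁻¹ = y := by group
    rw [h2] at h1
    calc φ y = h * (h⁻¹ * φ y * h) * h⁻¹ := by group
      _ = h * (w' * (h⁻¹ * y * h) * w'⁻¹) * h⁻¹ := by rw [h1]
      _ = h * w' * h⁻¹ * y * (h * w' * h⁻¹)⁻¹ := by group
  -- choose the elements `w_s`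
  letI : Fintype (S : Subgroup G) := Fintype.ofFinite _
  have hcardF : Fintype.card (S : Subgroup G) = 8 := by
    rw [← Nat.card_eq_fintype_card]; exact hcard
  have hW : ∀ s : (S : Subgroup G), ∃ w : (S : Subgroup G), s ≠ 1 →
      ∀ y ∈ Subgroup.centralizer ({(s : G)} : Set G), φ y = (w : G) * y * (w : G)⁻¹ := by
    intro s
    by_cases hs1 : s = 1
    · exact ⟨1, fun h => absurd hs1 h⟩
    · obtain ⟨w, hw, hwy⟩ := hstar s.1 s.2 (fun h => hs1 (Subtype.ext h))
      exact ⟨⟨w, hw⟩, fun _ => hwy⟩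
  choose W hWs using hW
  let f : ↥(S : Subgroup G) × Bool → (S : Subgroup G) := fun p => W p.1 * (if p.2 then p.1 else 1)
  have hf : ∀ p : ↥(S : Subgroup G) × Bool, p.1 ≠ 1 →
      ∀ y ∈ Subgroup.centralizer ({(p.1 : G)} : Set G), φ y = (f p : G) * y * (f p : G)⁻¹ := by
    rintro ⟨s, b⟩ hs1 y hy
    have h1 := hWs s hs1 y hy
    cases b with
    | false =>
      show φ y = ((W s * 1 : (S : Subgroup G)) : G) * y * ((W s * 1 : (S : Subgroup G)) : G)⁻¹
      rw [mul_one]; exact h1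
    | true =>
      show φ y = ((W s * s : (S : Subgroup G)) : G) * y * ((W s * s : (S : Subgroup G)) : G)⁻¹
      rw [h1, Subgroup.coe_mul]
      have h2 : (s : G) * y = y * (s : G) := by
        have := (Subgroup.mem_centralizer_iff.mp hy) (s : G) (Set.mem_singleton _)
        exact this
      calc (W s : G) * y * (W s : G)⁻¹ = (W s : G) * (y * (s : G)) * (s : G)⁻¹ * (W s : G)⁻¹ := by
            group
        _ = (W s : G) * ((s : G) * y) * (s : G)⁻¹ * (W s : G)⁻¹ := by rw [h2]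
        _ = (W s : G) * (s : G) * y * ((W s : G) * (s : G))⁻¹ := by group
  obtain ⟨x, hx, y, hy, hxy, hfxy⟩ := Finset.exists_ne_map_eq_of_card_lt_of_maps_to
    (s := (Finset.univ.erase (1 : (S : Subgroup G))) ×ˢ (Finset.univ : Finset Bool))
    (t := (Finset.univ : Finset (S : Subgroup G))) (f := f) (by
      rw [Finset.card_product, Finset.card_erase_of_mem (Finset.mem_univ _), Finset.card_univ,
        Finset.card_univ, hcardF, Fintype.card_bool]; norm_num) (fun a _ => Finset.mem_univ _)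
  have hx1 : x.1 ≠ 1 := by
    have := (Finset.mem_product.mp hx).1
    exact (Finset.mem_erase.mp this).1
  have hy1 : y.1 ≠ 1 := by
    have := (Finset.mem_product.mp hy).1
    exact (Finset.mem_erase.mp this).1
  have hne : x.1 ≠ y.1 := by
    intro h
    obtain ⟨s, b⟩ := x
    obtain ⟨s', b'⟩ := y
    simp only at h hx1 hy1
    subst h
    have hb : b ≠ b' := fun hb => hxy (by rw [hb])
    have h5 : (if b then s else 1) = (if b' then s else (1 : (S : Subgroup G))) :=
      mul_left_cancel hfxy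
    cases b <;> cases b' <;> simp at hb h5
    · exact hx1 h5.symm
    · exact hx1 h5
  -- the subgroup on which `φ` is conjugation by `w`
  set w : G := (f x : G) with hw
  let K : Subgroup G := (φ : G →* G).eqLocus (MulAut.conj w).toMonoidHom
  have hK : ∀ z : G, z ∈ K ↔ φ z = w * z * w⁻¹ := fun z => Iff.rfl
  have hKx : Subgroup.centralizer ({(x.1 : G)} : Set G) ≤ K := fun z hz => (hK z).mpr (hf x hx1 z hz)
  have hKy : Subgroup.centralizer ({(y.1 : G)} : Set G) ≤ K := fun z hz => by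
    rw [hK, hw, hfxy]; exact hf y hy1 z hz
  obtain ⟨h₁, hh₁⟩ := hconjt x.1 x.1.2 (fun h => hx1 (Subtype.ext h))
  obtain ⟨h₂, hh₂⟩ := hconjt y.1 y.1.2 (fun h => hy1 (Subtype.ext h))
  have hcx : IsCoatom (Subgroup.centralizer ({(x.1 : G)} : Set G)) := by
    rw [← hh₁]; exact coatom_conj97 h₁ t hcoat
  have hcy : IsCoatom (Subgroup.centralizer ({(y.1 : G)} : Set G)) := by
    rw [← hh₂]; exact coatom_conj97 h₂ t hcoat
  have hzx : ZC G (x.1 : G) := by
    rw [← hh₁]; exact zc_conj97 h₁ t hZC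
  have hKtop : K = ⊤ := by
    by_contra hKne
    have e1 : K = Subgroup.centralizer ({(x.1 : G)} : Set G) := by
      rcases hcx.le_iff.mp hKx with h | h
      · exact absurd h hKne
      · exact h
    have e2 : K = Subgroup.centralizer ({(y.1 : G)} : Set G) := by
      rcases hcy.le_iff.mp hKy with h | h
      · exact absurd h hKne
      · exact h
    have e3 : Subgroup.centralizer ({(x.1 : G)} : Set G) =
        Subgroup.centralizer ({(y.1 : G)} : Set G) := e1.symm.trans e2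
    have hyc : (y.1 : G) ∈ Subgroup.centralizer ({(x.1 : G)} : Set G) := by
      rw [Subgroup.mem_centralizer_iff]
      intro z hz
      rw [Set.mem_singleton_iff.mp hz]
      exact hcomm _ x.1.2 _ y.1.2
    have hycen : ∀ z ∈ Subgroup.centralizer ({(x.1 : G)} : Set G), (y.1 : G) * z = z * (y.1 : G) := by
      intro z hz
      rw [e3] at hz
      exact (Subgroup.mem_centralizer_iff.mp hz) _ (Set.mem_singleton _)
    rcases zpowers_sq97 (hexp _ x.1.2) (hzx _ hyc hycen) with h | h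
    · exact hy1 (Subtype.ext h)
    · exact hne (Subtype.ext h.symm)
  refine ⟨w, fun z => ?_⟩
  have : z ∈ K := by rw [hKtop]; exact Subgroup.mem_top z
  exact (hK z).mp this

end Cfsg.Agent.Lib.Helper97.JR
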