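import Cfsg.Agent.Lib.Helper35.JR.Defs

/-!
# JR [LOC] (S3206): a 2-power-order automorphism fixing a Sylow 2-subgroup `S ∋ t` pointwise acts
on `C_G(t) = ⟨t⟩ × E` as conjugation by an element of `S`.
-/

set_option autoImplicit false

namespace Cfsg.Agent.Lib.Helper97.JR

open Cfsg.Agent.Lib.Helper35.JR

universe u

/-- The product of two elementwise commuting subgroups. -/
def prodSub97 {G : Type u} [Group G] (A B : Subgroup G)
    (h : ∀ a ∈ A, ∀ b ∈ B, a * b = b * a) : Subgroup G where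
  carrier := {x | ∃ a ∈ A, ∃ b ∈ B, x = a * b}
  mul_mem' := by
    rintro _ _ ⟨z, hz, e, he, rfl⟩ ⟨z', hz', e', he', rfl⟩
    refine ⟨z * z', mul_mem hz hz', e * e', mul_mem he he', ?_⟩
    have h1 := h z' hz' e he
    calc z * e * (z' * e') = z * (e * z') * e' := by group
      _ = z * (z' * e) * e' := by rw [h1]
      _ = z * z' * (e * e') := by group
  one_mem' := ⟨1, one_mem _, 1, one_mem _, by simp⟩
  inv_mem' := by
    rintro _ ⟨z, hz, e, he, rfl⟩
    refine ⟨z⁻¹, inv_mem hz, e⁻¹, inv_mem he, ?_⟩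
    have h1 := h z⁻¹ (inv_mem hz) e⁻¹ (inv_mem he)
    rw [mul_inv_rev, h1]

theorem mem_prodSub97 {G : Type u} [Group G] (A B : Subgroup G)
    (h : ∀ a ∈ A, ∀ b ∈ B, a * b = b * a) (x : G) :
    x ∈ prodSub97 A B h ↔ ∃ a ∈ A, ∃ b ∈ B, x = a * b := Iff.rfl

theorem pkgLoc : PkgLoc.{u} := by
  intro G _ _ hab t ht E hE hEL ψ k hψ S htS hSfix
  obtain ⟨hZle, hEle, hcomm, hinf, hsup⟩ := hE
  obtain ⟨hsq, hT4, hβ⟩ := hEL
  have ht2 : t ^ 2 = 1 := by rw [← ht]; exact pow_orderOf_eq_one t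
  have hz2 : ∀ z ∈ Subgroup.zpowers t, z ^ 2 = 1 := by
    intro z hz
    obtain ⟨n, rfl⟩ := Subgroup.mem_zpowers_iff.mp hz
    rw [← zpow_natCast, ← zpow_mul, mul_comm, zpow_mul, zpow_natCast, ht2, one_zpow]
  have hψz : ∀ z ∈ Subgroup.zpowers t, ψ z = z := by
    intro z hz
    obtain ⟨n, rfl⟩ := Subgroup.mem_zpowers_iff.mp hz
    rw [map_zpow, hSfix t htS]
  -- decomposition of the elements of `C(t)`
  have hdec : ∀ x ∈ Subgroup.centralizer ({t} : Set G),
      ∃ z ∈ Subgroup.zpowers t, ∃ e ∈ E, x = z * e := by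
    intro x hx
    rw [← hsup] at hx
    have hle : Subgroup.zpowers t ⊔ E ≤ prodSub97 (Subgroup.zpowers t) E hcomm := by
      refine sup_le ?_ ?_
      · intro z hz; exact ⟨z, hz, 1, one_mem _, by simp⟩
      · intro e he; exact ⟨1, one_mem _, e, he, by simp⟩
    exact hle hx
  have hψC : ∀ x ∈ Subgroup.centralizer ({t} : Set G),
      ψ x ∈ Subgroup.centralizer ({t} : Set G) := by
    intro x hx
    rw [Subgroup.mem_centralizer_iff] at hx ⊢
    intro y hy
    rw [Set.mem_singleton_iff.mp hy]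
    have h1 := hx t (Set.mem_singleton t)
    have h2 := congrArg ψ h1
    rw [map_mul, map_mul, hSfix t htS] at h2
    exact h2
  have hψsq : ∀ e ∈ E, ψ (e ^ 2) ∈ E := by
    intro e he
    obtain ⟨z, hz, e', he', h1⟩ := hdec _ (hψC e (hEle he))
    rw [map_pow, h1]
    have h2 : Commute z e' := hcomm z hz e' he'
    rw [h2.mul_pow, hz2 z hz, one_mul]
    exact pow_mem he' 2
  have hψE : ∀ e ∈ E, ψ e ∈ E := by
    intro e he
    have hmem : (⟨e, he⟩ : E) ∈ Subgroup.closure {y : E | ∃ x : E, x ^ 2 = y} := by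
      rw [hsq]; exact Subgroup.mem_top _
    show ψ ((⟨e, he⟩ : E) : G) ∈ E
    refine Subgroup.closure_induction (p := fun (y : E) _ => ψ (y : G) ∈ E) ?_ ?_ ?_ ?_ hmem
    · rintro y ⟨x, rfl⟩
      show ψ ((x ^ 2 : E) : G) ∈ E
      rw [Subgroup.coe_pow]; exact hψsq x x.2
    · show ψ ((1 : E) : G) ∈ E
      rw [Subgroup.coe_one, map_one]; exact one_mem _
    · intro a b _ _ ha hb
      show ψ ((a * b : E) : G) ∈ E
      rw [Subgroup.coe_mul, map_mul]; exact mul_mem ha hb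
    · intro a _ ha
      show ψ ((a⁻¹ : E) : G) ∈ E
      rw [Subgroup.coe_inv, map_inv]; exact inv_mem ha
  -- the restriction of `ψ` to `E`
  let β₀ : E →* E := (ψ.toMonoidHom.comp E.subtype).codRestrict E (fun e => hψE e e.2)
  have hβ₀ : ∀ e : E, ((β₀ e : E) : G) = ψ (e : G) := fun e => rfl
  have hβinj : Function.Injective β₀ := by
    intro a b hab'
    have := congrArg (Subtype.val) hab'
    rw [hβ₀, hβ₀] at this
    exact Subtype.ext (ψ.injective this)
  have hβbij : Function.Bijective β₀ := Finite.injective_iff_bijective.mp hβinj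
  let β : E ≃* E := MulEquiv.ofBijective β₀ hβbij
  have hβv : ∀ e : E, ((β e : E) : G) = ψ (e : G) := fun e => rfl
  have hβpow : ∀ n : ℕ, ∀ e : E, (((β ^ n) e : E) : G) = (ψ ^ n) (e : G) := by
    intro n
    induction n with
    | zero => intro e; simp
    | succ n ih =>
      intro e
      rw [pow_succ, pow_succ, MulAut.mul_apply, MulAut.mul_apply, ih, hβv]
  have hβ1 : β ^ (2 ^ k) = 1 := by
    refine MulEquiv.ext fun e => Subtype.ext ?_
    rw [hβpow, hψ]; rfl
  -- a Sylow 2-subgroup of `E` inside `S`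
  have hSC : ∀ s ∈ (S : Subgroup G), s ∈ Subgroup.centralizer ({t} : Set G) := by
    intro s hs
    rw [Subgroup.mem_centralizer_iff]
    intro y hy
    rw [Set.mem_singleton_iff.mp hy]
    exact hab S t htS s hs
  have hS₀ : IsPGroup 2 ((S : Subgroup G).subgroupOf E) := S.isPGroup'.comap_subtype
  obtain ⟨T, hT⟩ := hS₀.exists_le_sylow
  obtain ⟨_, hTexp⟩ := hT4 T
  have hcommT : ∀ a ∈ Subgroup.zpowers t, ∀ b ∈ (T : Subgroup E).map E.subtype, a * b = b * a := by
    rintro a ha _ ⟨e, _, rfl⟩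
    exact hcomm a ha _ e.2
  have hQp : IsPGroup 2 (prodSub97 (Subgroup.zpowers t) ((T : Subgroup E).map E.subtype) hcommT) := by
    rintro ⟨x, hx⟩
    obtain ⟨a, ha, b, hb, rfl⟩ := hx
    refine ⟨1, Subtype.ext ?_⟩
    obtain ⟨e, he, rfl⟩ := hb
    have hc : Commute a (E.subtype e) := hcomm a ha _ e.2
    have he2 : (E.subtype e) ^ 2 = 1 := by
      have := hTexp e he
      rw [← map_pow, this, map_one]
    show (a * E.subtype e) ^ 2 ^ 1 = 1
    rw [pow_one, hc.mul_pow, hz2 a ha, he2, one_mul]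
  have hSQ : (S : Subgroup G) ≤
      prodSub97 (Subgroup.zpowers t) ((T : Subgroup E).map E.subtype) hcommT := by
    intro s hs
    obtain ⟨z, hz, e, he, rfl⟩ := hdec s (hSC s hs)
    have hzS : z ∈ (S : Subgroup G) := (Subgroup.zpowers_le.mpr htS) hz
    have heS : e ∈ (S : Subgroup G) := by
      have : e = z⁻¹ * (z * e) := by group
      rw [this]; exact mul_mem (inv_mem hzS) hs
    have heT : (⟨e, he⟩ : E) ∈ (T : Subgroup E) := hT (Subgroup.mem_subgroupOf.mpr heS)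
    exact ⟨z, hz, e, ⟨⟨e, he⟩, heT, rfl⟩, rfl⟩
  have hQS := S.is_maximal' hQp hSQ
  have hTS : ∀ x : E, x ∈ (T : Subgroup E) → (x : G) ∈ (S : Subgroup G) := by
    intro x hx
    rw [← hQS]
    exact ⟨1, one_mem _, (x : G), ⟨x, hx, rfl⟩, by simp⟩
  obtain ⟨v, hv, hvx⟩ := hβ β k hβ1 T
    (fun x hx => Subtype.ext (by rw [hβv]; exact hSfix _ (hTS x hx)))
  refine ⟨(v : G), hTS v hv, ?_⟩
  intro x hx
  obtain ⟨z, hz, e, he, rfl⟩ := hdec x hx
  have h1 := congrArg Subtype.val (hvx ⟨e, he⟩)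
  rw [hβv] at h1
  simp only [Subgroup.coe_mul, Subgroup.coe_inv] at h1
  rw [map_mul, hψz z hz, h1]
  have h2 := hcomm z hz (v : G) v.2
  calc z * ((v : G) * e * (v : G)⁻¹) = (z * (v : G)) * e * (v : G)⁻¹ := by group
    _ = ((v : G) * z) * e * (v : G)⁻¹ := by rw [h2]
    _ = (v : G) * (z * e) * (v : G)⁻¹ := by group

end Cfsg.Agent.Lib.Helper97.JR
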